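/-
CALL LM (helper21, S4067), piece COUNT (double): one automorphism moving every element outside an
index-`p` subgroup `M ≥ Z(G)` to a non-conjugate element gives at most `|G|/p` orbits.
-/
import Mathlib

set_option autoImplicit false

namespace Cfsg.Agent.Helper22.LM

/-- Automorphisms preserve the center. -/
theorem lm_aux_center {G : Type*} [Group G] (τ : MulAut G) {c : G}
    (hc : c ∈ Subgroup.center G) : τ c ∈ Subgroup.center G := by
  rw [Subgroup.mem_center_iff] at hc ⊢
  intro h
  have h1 := hc (τ⁻¹ h)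
  have h2 := congrArg τ h1
  simpa using h2

/-- The conjugacy class of a non-central element has at least `minFac |G|` elements. -/
theorem lm_aux_class {G : Type*} [Group G] [Finite G] {g : G} (hg : g ∉ Subgroup.center G) :
    (Nat.card G).minFac ≤ (MulAction.orbit (ConjAct G) g).ncard := by
  haveI : Finite (ConjAct G) := ‹Finite G›
  rw [← MulAction.index_stabilizer]
  have hdvd : (MulAction.stabilizer (ConjAct G) g).index ∣ Nat.card G :=
    Subgroup.index_dvd_card (MulAction.stabilizer (ConjAct G) g)
  apply Nat.minFac_le_of_dvd _ hdvd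
  have h0 : (MulAction.stabilizer (ConjAct G) g).index ≠ 0 := Subgroup.index_ne_zero_of_finite
  have h1 : (MulAction.stabilizer (ConjAct G) g).index ≠ 1 := by
    intro h
    rw [Subgroup.index_eq_one] at h
    apply hg
    rw [Subgroup.mem_center_iff]
    intro c
    have hc : ConjAct.toConjAct c ∈ MulAction.stabilizer (ConjAct G) g := by rw [h]; trivial
    rw [MulAction.mem_stabilizer_iff, ConjAct.smul_def] at hc
    simp only [ConjAct.ofConjAct_toConjAct] at hc
    exact (mul_inv_eq_iff_eq_mul.mp hc)
  omega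

/-- Sum of an indicator of a subgroup. -/
theorem lm_aux_sum {G : Type*} [Group G] [Fintype G] (H : Subgroup G) [DecidablePred (· ∈ H)]
    (c : ℕ) : ∑ g : G, (if g ∈ H then c else 0) = Nat.card H * c := by
  rw [← Finset.sum_filter, Finset.sum_const, smul_eq_mul]
  congr 1
  rw [Nat.card_eq_fintype_card, Fintype.card_subtype]

/-- COUNT. -/
theorem lm_count {G : Type*} [Group G] [Finite G] (hna : ¬ IsMulCommutative G)
    (σ : MulAut G) (M : Subgroup G) (hM : M.index = (Nat.card G).minFac)
    (hZM : Subgroup.center G ≤ M) (hσ : ∀ g : G, g ∉ M → ¬ IsConj g (σ g)) :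
    Nat.card (MulAction.orbitRel.Quotient (MulAut G) G) ≤ Nat.card G / (Nat.card G).minFac := by
  classical
  haveI := Fintype.ofFinite G
  have hG1 : Nat.card G ≠ 1 := by
    intro h
    apply hna
    haveI : Subsingleton G := (Nat.card_eq_one_iff_unique.mp h).1
    exact ⟨⟨fun a b => Subsingleton.elim _ _⟩⟩
  have hpp : (Nat.card G).minFac.Prime := Nat.minFac_prime hG1
  have hp2 : 2 ≤ (Nat.card G).minFac := hpp.two_le
  have hnm : Nat.card M * (Nat.card G).minFac = Nat.card G := by
    rw [← hM]; exact Subgroup.card_mul_index M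
  have hZneM : Subgroup.center G ≠ M := by
    intro h
    apply hna
    have hidx : (Subgroup.center G).index = (Nat.card G).minFac := by rw [h]; exact hM
    haveI : Fact (Nat.card G).minFac.Prime := ⟨hpp⟩
    haveI : IsCyclic (G ⧸ Subgroup.center G) :=
      isCyclic_of_prime_card (p := (Nat.card G).minFac) (by rw [← hidx]; rfl)
    exact MonoidHom.isMulCommutative_of_isCyclic_of_ker_le_center
      (QuotientGroup.mk' (Subgroup.center G)) (by rw [QuotientGroup.ker_mk'])
  have h2z : 2 * Nat.card (Subgroup.center G) ≤ Nat.card M := by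
    obtain ⟨k, hk⟩ := Subgroup.card_dvd_of_le hZM
    have hk1 : k ≠ 1 := by
      intro h1
      rw [h1, mul_one] at hk
      exact hZneM (Subgroup.eq_of_le_of_card_ge hZM hk.le)
    have hk0 : k ≠ 0 := by
      intro h0
      rw [h0, mul_zero] at hk
      exact (Nat.card_pos (α := M)).ne' hk
    rw [hk]
    have hk2 : 2 ≤ k := by omega
    calc 2 * Nat.card (Subgroup.center G) = Nat.card (Subgroup.center G) * 2 := by ring
      _ ≤ Nat.card (Subgroup.center G) * k := Nat.mul_le_mul_left _ hk2
  haveI : Fintype (MulAction.orbitRel.Quotient (MulAut G) G) := Fintype.ofFinite _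
  let π : G → MulAction.orbitRel.Quotient (MulAut G) G := fun g => Quotient.mk'' g
  let f : G → ℕ := fun g => 1 + (if g ∈ M then 1 else 0) +
    (if g ∈ Subgroup.center G then 2 * (Nat.card G).minFac - 2 else 0)
  have hmem : ∀ g g₀ : G, π g = π g₀ ↔ ∃ φ : MulAut G, φ g₀ = g := by
    intro g g₀
    show (Quotient.mk'' g : MulAction.orbitRel.Quotient (MulAut G) G) = Quotient.mk'' g₀ ↔ _
    rw [Quotient.eq'', MulAction.orbitRel_apply, MulAction.mem_orbit_iff]
    rfl
  have hfib : ∀ ω : MulAction.orbitRel.Quotient (MulAut G) G,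
      2 * (Nat.card G).minFac ≤ ∑ g ∈ Finset.univ.filter (fun g => π g = ω), f g := by
    intro ω
    induction ω using Quotient.inductionOn' with
    | h g₀ =>
    have hFmem : ∀ g, g ∈ Finset.univ.filter (fun g => π g = Quotient.mk'' g₀) ↔
        ∃ φ : MulAut G, φ g₀ = g := by
      intro g
      rw [Finset.mem_filter]
      simp only [Finset.mem_univ, true_and]
      exact hmem g g₀
    generalize hF : Finset.univ.filter (fun g => π g = Quotient.mk'' g₀) = F at hFmem ⊢
    have hconj : ∀ g ∈ F, MulAction.orbit (ConjAct G) g ⊆ (F : Set G) := by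
      intro g hg h hh
      obtain ⟨φ, rfl⟩ := (hFmem g).mp hg
      obtain ⟨c, rfl⟩ := hh
      rw [Finset.mem_coe, hFmem]
      refine ⟨MulAut.conj (ConjAct.ofConjAct c) * φ, ?_⟩
      simp [ConjAct.smul_def, MulAut.mul_apply]
    by_cases hg₀ : g₀ ∈ Subgroup.center G
    · have h1 : g₀ ∈ F := (hFmem g₀).mpr ⟨1, rfl⟩
      have h2 : f g₀ = 2 * (Nat.card G).minFac := by
        simp only [f, if_pos (hZM hg₀), if_pos hg₀]; omega
      calc 2 * (Nat.card G).minFac = f g₀ := h2.symm
        _ ≤ ∑ g ∈ F, f g := Finset.single_le_sum (fun _ _ => Nat.zero_le _) h1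
    · have hnc : ∀ g ∈ F, g ∉ Subgroup.center G := by
        intro g hg hgZ
        obtain ⟨φ, rfl⟩ := (hFmem g).mp hg
        apply hg₀
        have := lm_aux_center φ⁻¹ hgZ
        simpa using this
      by_cases hB : ∃ g₁ ∈ F, g₁ ∉ M
      · obtain ⟨g₁, hg₁F, hg₁M⟩ := hB
        have hσF : σ g₁ ∈ F := by
          obtain ⟨φ, rfl⟩ := (hFmem g₁).mp hg₁F
          exact (hFmem _).mpr ⟨σ * φ, rfl⟩
        have hc1 := lm_aux_class (hnc g₁ hg₁F)
        have hc2 := lm_aux_class (hnc _ hσF)
        have hdisj : Disjoint (MulAction.orbit (ConjAct G) g₁)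
            (MulAction.orbit (ConjAct G) (σ g₁)) := by
          rw [Set.disjoint_left]
          intro h h1 h2
          rw [ConjAct.mem_orbit_conjAct] at h1 h2
          exact hσ g₁ hg₁M (h1.symm.trans h2)
        have hsub : MulAction.orbit (ConjAct G) g₁ ∪ MulAction.orbit (ConjAct G) (σ g₁) ⊆
            (F : Set G) := Set.union_subset (hconj g₁ hg₁F) (hconj _ hσF)
        have hcard2 : 2 * (Nat.card G).minFac ≤ F.card := by
          have h3 := Set.ncard_le_ncard hsub (Finset.finite_toSet F)
          rw [Set.ncard_union_eq hdisj (Set.toFinite _) (Set.toFinite _),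
            Set.ncard_coe_finset] at h3
          omega
        calc 2 * (Nat.card G).minFac ≤ F.card := hcard2
          _ = ∑ g ∈ F, 1 := by simp
          _ ≤ ∑ g ∈ F, f g := Finset.sum_le_sum (fun g _ => by simp only [f]; omega)
      · push Not at hB
        have hg₀F : g₀ ∈ F := (hFmem g₀).mpr ⟨1, rfl⟩
        have hc0 := lm_aux_class (hnc g₀ hg₀F)
        have hcard1 : (Nat.card G).minFac ≤ F.card := by
          have h3 := Set.ncard_le_ncard (hconj g₀ hg₀F) (Finset.finite_toSet F)
          rw [Set.ncard_coe_finset] at h3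
          omega
        calc 2 * (Nat.card G).minFac ≤ 2 * F.card := by omega
          _ = ∑ g ∈ F, 2 := by simp [mul_comm]
          _ ≤ ∑ g ∈ F, f g := Finset.sum_le_sum (fun g hg => by
              simp only [f, if_pos (hB g hg), if_neg (hnc g hg)]; omega)
  have hsum : ∑ g : G, f g = ∑ ω : MulAction.orbitRel.Quotient (MulAut G) G,
      ∑ g ∈ Finset.univ.filter (fun g => π g = ω), f g :=
    (Finset.sum_fiberwise Finset.univ π f).symm
  have hcard : ∑ g : G, f g = Nat.card G + Nat.card M +
      Nat.card (Subgroup.center G) * (2 * (Nat.card G).minFac - 2) := by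
    simp only [f, Finset.sum_add_distrib]
    rw [lm_aux_sum M 1, lm_aux_sum (Subgroup.center G) (2 * (Nat.card G).minFac - 2)]
    simp [Nat.card_eq_fintype_card]
  have hmain : 2 * (Nat.card G).minFac *
      Fintype.card (MulAction.orbitRel.Quotient (MulAut G) G) ≤
      Nat.card G + Nat.card M + Nat.card (Subgroup.center G) * (2 * (Nat.card G).minFac - 2) := by
    rw [← hcard, hsum]
    calc 2 * (Nat.card G).minFac * Fintype.card (MulAction.orbitRel.Quotient (MulAut G) G)
        = ∑ ω : MulAction.orbitRel.Quotient (MulAut G) G, 2 * (Nat.card G).minFac := by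
          simp [mul_comm]
      _ ≤ _ := Finset.sum_le_sum (fun ω _ => hfib ω)
  rw [Nat.card_eq_fintype_card, Nat.le_div_iff_mul_le hpp.pos]
  obtain ⟨k, hk⟩ : ∃ k, (Nat.card G).minFac = k + 1 := ⟨(Nat.card G).minFac - 1, by omega⟩
  have h2p : 2 * (Nat.card G).minFac - 2 = 2 * k := by omega
  rw [h2p] at hmain
  rw [hk] at hmain hnm ⊢
  have h3 : Nat.card (Subgroup.center G) * (2 * k) ≤ k * Nat.card M := by
    calc Nat.card (Subgroup.center G) * (2 * k) = k * (2 * Nat.card (Subgroup.center G)) := by ring
      _ ≤ k * Nat.card M := Nat.mul_le_mul_left k h2z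
  have h4 : 2 * (k + 1) * Fintype.card (MulAction.orbitRel.Quotient (MulAut G) G) ≤
      2 * (k + 1) * Nat.card M := by
    calc 2 * (k + 1) * Fintype.card (MulAction.orbitRel.Quotient (MulAut G) G)
        ≤ Nat.card G + Nat.card M + Nat.card (Subgroup.center G) * (2 * k) := hmain
      _ ≤ Nat.card M * (k + 1) + Nat.card M + k * Nat.card M := by rw [hnm]; omega
      _ = 2 * (k + 1) * Nat.card M := by ring
  have h5 := Nat.le_of_mul_le_mul_left h4 (by omega : 0 < 2 * (k + 1))
  rw [← hnm]
  exact Nat.mul_le_mul_right _ h5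

end Cfsg.Agent.Helper22.LM
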