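/-
Helper library of seat helper22: normal elementary abelian subgroups of `p`-groups, `p` odd.

* `exists_normal_le_card`: a normal subgroup of order `p ^ a` of a `p`-group contains normal
  subgroups of the group of every order `p ^ i`, `i ≤ a`.
* `elemAb_sup_zpowers'`: adjoining a centralising element of order `p`.
* `exists_normal_elemAb_succ`: (`p` odd) if a normal elementary abelian `V` lies in an elementary
  abelian subgroup of order `p |V|`, it lies in a normal one.
* `mem_of_centralizes_of_max`: Alperin's lemma: (`p` odd) for a normal elementary abelian subgroup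
  `A` of largest order, every element of order dividing `p` centralising `A` lies in `A`.
* `card_le_card_mul_card_inf_centralizer`: orbit bound for conjugates inside a coset.
-/
import Cfsg.Agent.S0100
import Cfsg.Agent.S0129

set_option autoImplicit false

namespace Cfsg.Agent.Helper22

open Subgroup
open scoped commutatorElement

section

variable {P : Type*} [Group P] [Finite P] {p : ℕ} [hp : Fact p.Prime]

/-- A normal subgroup of order `p ^ a` of a `p`-group contains normal subgroups of the whole group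
of each order `p ^ i`, `i ≤ a`. -/
theorem exists_normal_le_card (hP : IsPGroup p P) (A : Subgroup P) [A.Normal] (a : ℕ)
    (ha : Nat.card A = p ^ a) (i : ℕ) (hi : i ≤ a) :
    ∃ K : Subgroup P, K.Normal ∧ K ≤ A ∧ Nat.card K = p ^ i := by
  have hp1 : 1 < p := hp.out.one_lt
  induction i with
  | zero => exact ⟨⊥, inferInstance, bot_le, by rw [Subgroup.card_bot, pow_zero]⟩
  | succ i ih =>
    obtain ⟨K, hKn, hKA, hKcard⟩ := ih (by omega)
    have hKne : K ≠ A := by
      intro h
      rw [h, ha] at hKcard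
      have := Nat.pow_right_injective hp1 hKcard
      omega
    obtain ⟨x, hxA, hxK, hxp, hxc⟩ := Cfsg.Agent.S0129.central_ext hP K A hKA hKne
    obtain ⟨K', hK'n, hKK', hxK', hK'card, hK'mem⟩ := Cfsg.Agent.S0129.ext_props K x hxK hxp hxc
    refine ⟨K', hK'n, ?_, by rw [hK'card, hKcard, pow_succ, mul_comm]⟩
    intro y hy
    obtain ⟨k, e, he, rfl⟩ := hK'mem y hy
    exact A.mul_mem (A.zpow_mem hxA k) (hKA he)

/-- Adjoining to an elementary abelian subgroup an element of order `p` centralising it and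
not contained in it gives an elementary abelian subgroup of `p` times the order. -/
theorem elemAb_sup_zpowers' (V : Subgroup P) (hV : Cfsg.IsElementaryAbelian p V) (t : P)
    (htV : t ∉ V) (htp : t ^ p = 1) (htc : ∀ v ∈ V, t * v = v * t) :
    Cfsg.IsElementaryAbelian p (V ⊔ Subgroup.zpowers t) ∧
      Nat.card (V ⊔ Subgroup.zpowers t : Subgroup P) = Nat.card V * p := by
  have hpp := hp.out
  have hcl : V ⊔ Subgroup.zpowers t = Subgroup.closure ((V : Set P) ∪ {t}) := by
    rw [Subgroup.closure_union, Subgroup.closure_eq, Subgroup.zpowers_eq_closure]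
  have hVcomm : ∀ a ∈ V, ∀ b ∈ V, a * b = b * a := by
    intro a ha b hb
    have := hV.1
    exact congrArg Subtype.val (mul_comm' (⟨a, ha⟩ : V) ⟨b, hb⟩)
  have hcomm : ∀ x ∈ ((V : Set P) ∪ {t}), ∀ y ∈ ((V : Set P) ∪ {t}), x * y = y * x := by
    rintro x (hx | hx) y (hy | hy)
    · exact hVcomm x hx y hy
    · rw [Set.mem_singleton_iff] at hy
      rw [hy]; exact (htc x hx).symm
    · rw [Set.mem_singleton_iff] at hx
      rw [hx]; exact htc y hy
    · rw [Set.mem_singleton_iff] at hx hy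
      rw [hx, hy]
  have hC : IsMulCommutative (Subgroup.closure ((V : Set P) ∪ {t})) :=
    Subgroup.isMulCommutative_closure hcomm
  refine ⟨⟨by rw [hcl]; exact hC, ?_⟩, ?_⟩
  · intro a ha
    rw [hcl] at ha
    induction ha using Subgroup.closure_induction with
    | mem x hx =>
      rcases hx with hx | hx
      · exact hV.2 x hx
      · rw [Set.mem_singleton_iff] at hx
        rw [hx]; exact htp
    | one => exact one_pow p
    | mul x y hx hy ihx ihy =>
      have hxy : Commute x y :=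
        congrArg Subtype.val (mul_comm' (⟨x, hx⟩ : Subgroup.closure ((V : Set P) ∪ {t})) ⟨y, hy⟩)
      rw [hxy.mul_pow, ihx, ihy, one_mul]
    | inv x hx ihx => rw [inv_pow, ihx, inv_one]
  · have ht1 : t ≠ 1 := fun h => htV (h ▸ V.one_mem)
    have hto : orderOf t = p := orderOf_eq_prime htp ht1
    have hle : Subgroup.zpowers t ≤ Subgroup.normalizer (V : Set P) := by
      rw [Subgroup.zpowers_le]
      apply Subgroup.centralizer_le_normalizer
      rw [Subgroup.mem_centralizer_iff]
      intro v hv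
      exact (htc v hv).symm
    have h1 := Cfsg.Agent.Helper51.card_sup_mul_card_inf_of_le_normalizer (Subgroup.zpowers t) V hle
    have hinf : Subgroup.zpowers t ⊓ V = ⊥ := by
      have h2 : Nat.card (Subgroup.zpowers t ⊓ V : Subgroup P) ∣ p := by
        have := Subgroup.card_dvd_of_le (inf_le_left : Subgroup.zpowers t ⊓ V ≤ Subgroup.zpowers t)
        rwa [Nat.card_zpowers, hto] at this
      rcases (Nat.dvd_prime hpp).mp h2 with h3 | h3
      · exact Subgroup.card_eq_one.mp h3
      · exfalso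
        apply htV
        have h4 : Subgroup.zpowers t ⊓ V = Subgroup.zpowers t :=
          Subgroup.eq_of_le_of_card_ge inf_le_left (by rw [h3, Nat.card_zpowers, hto])
        have h5 : t ∈ Subgroup.zpowers t ⊓ V := by
          rw [h4]; exact Subgroup.mem_zpowers t
        exact h5.2
    rw [hinf, Subgroup.card_bot, mul_one, Nat.card_zpowers, hto] at h1
    rw [sup_comm, h1, mul_comm]

/-- **Key lemma** (after helper2's `S0100.exists_normal_elemAb_cube`). For odd `p`, if the normal
elementary abelian subgroup `V` of a `p`-group lies in an elementary abelian subgroup of order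
`p |V|`, then it lies in a normal such subgroup. -/
theorem exists_normal_elemAb_succ (hp2 : p ≠ 2) (hP : IsPGroup p P) (V : Subgroup P)
    [hVn : V.Normal] (hV : Cfsg.IsElementaryAbelian p V)
    (T₀ : Subgroup P) (hT₀ : Cfsg.IsElementaryAbelian p T₀)
    (hT₀c : Nat.card T₀ = Nat.card V * p) (hVT₀ : V ≤ T₀) :
    ∃ T : Subgroup P, T.Normal ∧ Cfsg.IsElementaryAbelian p T ∧
      Nat.card T = Nat.card V * p ∧ V ≤ T := by
  have hpp := hp.out
  obtain ⟨T, ⟨hVT, hT, hTc⟩, hmax⟩ := Set.exists_max_image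
    {T : Subgroup P | V ≤ T ∧ Cfsg.IsElementaryAbelian p T ∧ Nat.card T = Nat.card V * p}
    (fun T => Nat.card (Subgroup.normalizer (T : Set P))) (Set.toFinite _)
    ⟨T₀, hVT₀, hT₀, hT₀c⟩
  refine ⟨T, ?_, hT, hTc, hVT⟩
  by_contra hTn
  have hN : Subgroup.normalizer (T : Set P) ≠ ⊤ :=
    fun h => hTn (Subgroup.normalizer_eq_top_iff.mp h)
  obtain ⟨g, -, hgN, hgT⟩ := Cfsg.Agent.Helper2.exists_mem_normalizer_notMem_of_lt
    (⊤ : Subgroup P) (Subgroup.normalizer (T : Set P)) (hP.to_subgroup ⊤)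
    (lt_top_iff_ne_top.mpr hN)
  have hexy : ∃ y ∈ T, y ∉ V := by
    by_contra hcon
    push Not at hcon
    have h1 : Nat.card T ≤ Nat.card V := Subgroup.card_le_of_le hcon
    rw [hTc] at h1
    have h2 : Nat.card V * 1 < Nat.card V * p :=
      Nat.mul_lt_mul_of_pos_left hpp.one_lt Nat.card_pos
    omega
  obtain ⟨y, hyT, hyV⟩ := hexy
  have hTcomm : ∀ a ∈ T, ∀ b ∈ T, a * b = b * a := by
    intro a ha b hb
    have := hT.1
    exact congrArg Subtype.val (mul_comm' (⟨a, ha⟩ : T) ⟨b, hb⟩)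
  have hy0 : Cfsg.Agent.S0100.Good p V (Subgroup.normalizer (T : Set P)) y := by
    refine ⟨Subgroup.le_normalizer hyT, fun v hv => hTcomm y hyT v (hVT hv), ?_, hT.2 y hyT⟩
    intro n hn
    exact Cfsg.Agent.S0100.comm_mem_of_index_prime hP V T hVT hTc n hn y hyT
  let yseq : ℕ → P := fun k => Nat.rec y (fun _ x => g * x * g⁻¹ * x⁻¹) k
  have hseqS : ∀ k, yseq (k + 1) = g * yseq k * g⁻¹ * (yseq k)⁻¹ := fun k => rfl
  have hgood : ∀ k, Cfsg.Agent.S0100.Good p V (Subgroup.normalizer (T : Set P)) (yseq k) := by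
    intro k
    induction k with
    | zero => exact hy0
    | succ k ih =>
      rw [hseqS]
      exact Cfsg.Agent.S0100.Good.mul hp2 hV.2 (ih.conj hgN) ih.inv
  have hlcs : ∀ k, yseq k ∈ (⊤ : Subgroup P).lowerCentralSeries k := by
    intro k
    induction k with
    | zero => exact Subgroup.mem_top _
    | succ k ih =>
      rw [hseqS, Subgroup.lowerCentralSeries_succ]
      have h1 : ⁅yseq k, g⁆ ∈ ⁅(⊤ : Subgroup P).lowerCentralSeries k, (⊤ : Subgroup P)⁆ :=
        Subgroup.commutator_mem_commutator ih (Subgroup.mem_top g)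
      have h2 := Subgroup.inv_mem _ h1
      have e : ⁅yseq k, g⁆⁻¹ = g * yseq k * g⁻¹ * (yseq k)⁻¹ := by
        rw [commutatorElement_def]; group
      rw [e] at h2
      exact h2
  have hnil : Group.IsNilpotent P := hP.isNilpotent
  obtain ⟨n, hn⟩ := Subgroup.nilpotent_iff_lowerCentralSeries.mp hnil
  have hyn : yseq n ∈ V := by
    have := hlcs n
    rw [hn, Subgroup.mem_bot] at this
    rw [this]
    exact V.one_mem
  have hexk : ∃ k, yseq k ∉ V ∧ yseq (k + 1) ∈ V := by
    by_contra hcon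
    push Not at hcon
    have hall : ∀ k, yseq k ∉ V := by
      intro k
      induction k with
      | zero => exact hyV
      | succ k ih => exact hcon k ih
    exact hall n hyn
  obtain ⟨k, hkV, hkV'⟩ := hexk
  obtain ⟨t1, t2, t3, t4⟩ := hgood k
  rw [hseqS] at hkV'
  obtain ⟨hT2, hT2c⟩ := elemAb_sup_zpowers' V hV (yseq k) hkV t4 t2
  have hnorm : ∀ x : P, x * yseq k * x⁻¹ * (yseq k)⁻¹ ∈ V →
      x ∈ Subgroup.normalizer ((V ⊔ Subgroup.zpowers (yseq k) : Subgroup P) : Set P) := by
    intro x hx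
    rw [Cfsg.Agent.Helper2.mem_normalizer_iff_map_conj_toMonoidHom_eq]
    apply Subgroup.eq_of_le_of_card_ge
    · rw [Subgroup.map_sup]
      apply sup_le
      · rintro _ ⟨v, hv, rfl⟩
        exact Subgroup.mem_sup_left (hVn.conj_mem v hv x)
      · rw [MonoidHom.map_zpowers, Subgroup.zpowers_le]
        have e : (MulAut.conj x).toMonoidHom (yseq k) =
            (x * yseq k * x⁻¹ * (yseq k)⁻¹) * yseq k := by
          simp [MulAut.conj_apply]
        rw [e]
        exact Subgroup.mul_mem _ (Subgroup.mem_sup_left hx)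
          (Subgroup.mem_sup_right (Subgroup.mem_zpowers _))
    · exact le_of_eq (Subgroup.card_map_of_injective (MulAut.conj x).injective).symm
  have hNle : Subgroup.normalizer (T : Set P) ≤
      Subgroup.normalizer ((V ⊔ Subgroup.zpowers (yseq k) : Subgroup P) : Set P) :=
    fun n hn => hnorm n (t3 n hn)
  have hg2 : g ∈ Subgroup.normalizer ((V ⊔ Subgroup.zpowers (yseq k) : Subgroup P) : Set P) :=
    hnorm g hkV'
  have hlt := Cfsg.Agent.Helper2.card_lt_card_of_le_of_mem_of_notMem hNle g hg2 hgT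
  have hle := hmax (V ⊔ Subgroup.zpowers (yseq k)) ⟨le_sup_left, hT2, hT2c⟩
  exact absurd hlt (not_lt.mpr hle)

/-- **Alperin's lemma.** For odd `p`, let `A` be a normal elementary abelian subgroup of largest
order of a `p`-group. Then every element of order dividing `p` that centralises `A` lies in `A`. -/
theorem mem_of_centralizes_of_max (hp2 : p ≠ 2) (hP : IsPGroup p P) (A : Subgroup P)
    [hAn : A.Normal] (hA : Cfsg.IsElementaryAbelian p A)
    (hmax : ∀ B : Subgroup P, B.Normal → Cfsg.IsElementaryAbelian p B →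
      Nat.card B ≤ Nat.card A) {x : P} (hx : x ^ p = 1) (hxc : ∀ a ∈ A, x * a = a * x) :
    x ∈ A := by
  by_contra hxA
  obtain ⟨hT, hTc⟩ := elemAb_sup_zpowers' A hA x hxA hx hxc
  obtain ⟨T, hTn, hTe, hTcard, -⟩ := exists_normal_elemAb_succ hp2 hP A hA _ hT hTc le_sup_left
  have h1 := hmax T hTn hTe
  rw [hTcard] at h1
  have h2 : Nat.card A * 1 < Nat.card A * p :=
    Nat.mul_lt_mul_of_pos_left hp.out.one_lt Nat.card_pos
  omega

end

/-- If all conjugates `s y s⁻¹`, `s ∈ S`, lie in the coset `V y`, then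
`|S| ≤ |V| |C_S(y)|`. -/
theorem card_le_card_mul_card_inf_centralizer {G : Type*} [Group G] [Finite G]
    (S V : Subgroup G) (y : G) (h : ∀ s ∈ S, s * y * s⁻¹ * y⁻¹ ∈ V) :
    Nat.card S ≤ Nat.card V * Nat.card (S ⊓ centralizer {y} : Subgroup G) := by
  classical
  have hex : ∀ v : V, ∃ r : G, r ∈ S ∧
      ((∃ s ∈ S, s * y * s⁻¹ * y⁻¹ = v) → r * y * r⁻¹ * y⁻¹ = v) := by
    intro v
    by_cases hv : ∃ s ∈ S, s * y * s⁻¹ * y⁻¹ = v
    · obtain ⟨s, hs, hsv⟩ := hv
      exact ⟨s, hs, fun _ => hsv⟩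
    · exact ⟨1, one_mem _, fun h => absurd h hv⟩
  choose r hrS hr using hex
  have hmem : ∀ s : S, (r ⟨(s : G) * y * (s : G)⁻¹ * y⁻¹, h s s.2⟩)⁻¹ * (s : G) ∈
      S ⊓ centralizer {y} := by
    intro s
    have h1 := hr ⟨(s : G) * y * (s : G)⁻¹ * y⁻¹, h s s.2⟩ ⟨s, s.2, rfl⟩
    refine Subgroup.mem_inf.mpr ⟨S.mul_mem (S.inv_mem (hrS _)) s.2, ?_⟩
    rw [Subgroup.mem_centralizer_singleton_iff]
    set r₀ := r ⟨(s : G) * y * (s : G)⁻¹ * y⁻¹, h s s.2⟩ with hr₀
    have h2 : r₀ * y * r₀⁻¹ = (s : G) * y * (s : G)⁻¹ := by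
      have := congrArg (fun z => z * y) h1
      simpa using this
    calc r₀⁻¹ * (s : G) * y = r₀⁻¹ * ((s : G) * y * (s : G)⁻¹) * (s : G) := by group
      _ = r₀⁻¹ * (r₀ * y * r₀⁻¹) * (s : G) := by rw [h2]
      _ = y * (r₀⁻¹ * (s : G)) := by group
  rw [← Nat.card_prod]
  let f : S → V × ↥(S ⊓ centralizer {y}) := fun s =>
    (⟨(s : G) * y * (s : G)⁻¹ * y⁻¹, h s s.2⟩,
      ⟨(r ⟨(s : G) * y * (s : G)⁻¹ * y⁻¹, h s s.2⟩)⁻¹ * (s : G), hmem s⟩)
  apply Nat.card_le_card_of_injective f
  intro s s' hss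
  have h1 : (⟨(s : G) * y * (s : G)⁻¹ * y⁻¹, h s s.2⟩ : V) =
      ⟨(s' : G) * y * (s' : G)⁻¹ * y⁻¹, h s' s'.2⟩ := congrArg Prod.fst hss
  have h2 := congrArg (fun z => (z.2 : G)) hss
  simp only [f] at h2
  rw [h1] at h2
  exact Subtype.ext (mul_left_cancel h2)

end Cfsg.Agent.Helper22
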