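/-
Helper library of seat helper22: the core of Bender–Glauberman, Theorem 4.8 (Blackburn):
a `p`-group `P` (`p > 3`) whose elements of order dividing `p` form a nonabelian subgroup `E`
of order `p ^ 3` is the central product of `E` with `C_P(E)`, provided `P = [P, 𝔄]` for a set `𝔄`
of automorphisms of odd order.

* `r2c_comm_zpow_left`, `r2c_comm_zpow_right`: powers in commutators with a central commutator,
  and their versions modulo a normal subgroup.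
* `r2c_gen`, `r2c_central_mod`, `r2c_chain`: chains of normal subgroups with steps of index `p`.
* `r2c_isCyclic_of_exp_le`: a `p`-group (`p` odd) whose subgroups of exponent `p` have order at most
  `p` is cyclic.
* `r2c_main`: the central product decomposition.
-/
import Cfsg.Agent.S0126
import Cfsg.Agent.S0129
import Cfsg.Agent.Helper22.NormalElemAb

set_option autoImplicit false

namespace Cfsg.Agent.Helper22

open Subgroup

section r2cGeneric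

variable {P : Type*} [Group P]

/-- If `c = a b a⁻¹ b⁻¹` commutes with `b`, then `a bⁿ a⁻¹ b⁻ⁿ = cⁿ`. -/
theorem r2c_comm_zpow_right (a b : P) (h : Commute (a * b * a⁻¹ * b⁻¹) b) (n : ℤ) :
    a * b ^ n * a⁻¹ * (b ^ n)⁻¹ = (a * b * a⁻¹ * b⁻¹) ^ n := by
  have h1 : a * b ^ n * a⁻¹ = (a * b * a⁻¹) ^ n := conj_zpow.symm
  have h2 : a * b * a⁻¹ = (a * b * a⁻¹ * b⁻¹) * b := by group
  have h3 : a * b ^ n * a⁻¹ = (a * b * a⁻¹ * b⁻¹) ^ n * b ^ n := by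
    rw [h1, ← h.mul_zpow, ← h2]
  rw [h3, mul_inv_cancel_right]

/-- If `c = a b a⁻¹ b⁻¹` commutes with `a`, then `aⁿ b a⁻ⁿ b⁻¹ = cⁿ`. -/
theorem r2c_comm_zpow_left (a b : P) (h : Commute (a * b * a⁻¹ * b⁻¹) a) (n : ℤ) :
    a ^ n * b * (a ^ n)⁻¹ * b⁻¹ = (a * b * a⁻¹ * b⁻¹) ^ n := by
  have h1 : b * a ^ n * b⁻¹ = (b * a * b⁻¹) ^ n := conj_zpow.symm
  have h2 : b * a * b⁻¹ = (a * b * a⁻¹ * b⁻¹)⁻¹ * a := by group
  have h3 : Commute (a * b * a⁻¹ * b⁻¹)⁻¹ a := h.inv_left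
  have h4 : b * a ^ n * b⁻¹ = ((a * b * a⁻¹ * b⁻¹)⁻¹) ^ n * a ^ n := by
    rw [h1, h2, h3.mul_zpow]
  have h5 : a ^ n * b * (a ^ n)⁻¹ * b⁻¹ = a ^ n * (b * a ^ n * b⁻¹)⁻¹ := by group
  rw [h5, h4, mul_inv_rev, mul_inv_cancel_left, inv_zpow, inv_inv]

theorem r2c_conj_eq_of_commute {a g : P} (h : Commute a g) : a * g * a⁻¹ = g := by
  rw [h.eq, mul_inv_cancel_right]

/-- An element of order dividing `p` raised to a multiple of `p`. -/
theorem r2c_zpow_eq_one_of_dvd {p : ℕ} (g : P) (hg : g ^ p = 1) (k : ℤ) (hk : (p : ℤ) ∣ k) :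
    g ^ k = 1 := by
  obtain ⟨j, rfl⟩ := hk
  rw [zpow_mul, zpow_natCast, hg, one_zpow]

/-- If `g` has order dividing `p`, `g ∉ H` and `g ^ k ∈ H`, then `p ∣ k`. -/
theorem r2c_dvd_of_zpow_mem {p : ℕ} [Fact p.Prime] (H : Subgroup P) (g : P) (hg : g ^ p = 1)
    (hgH : g ∉ H) (k : ℤ) (hk : g ^ k ∈ H) : (p : ℤ) ∣ k := by
  by_contra hnd
  have hpp : p.Prime := Fact.out
  have hcop : IsCoprime (p : ℤ) k :=
    (Prime.coprime_iff_not_dvd (Nat.prime_iff_prime_int.mp hpp)).mpr hnd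
  obtain ⟨a, b, hab⟩ := hcop
  apply hgH
  have h1 : g = (g ^ (p : ℤ)) ^ a * (g ^ k) ^ b := by
    rw [← zpow_mul, ← zpow_mul, ← zpow_add, mul_comm (p : ℤ) a, mul_comm k b, hab, zpow_one]
  rw [h1, zpow_natCast, hg, one_zpow, one_mul]
  exact H.zpow_mem hk b

/-- Same, for the trivial subgroup. -/
theorem r2c_dvd_of_zpow_eq_one {p : ℕ} [Fact p.Prime] (g : P) (hg : g ^ p = 1)
    (hg1 : g ≠ 1) (k : ℤ) (hk : g ^ k = 1) : (p : ℤ) ∣ k :=
  r2c_dvd_of_zpow_mem ⊥ g hg (fun h => hg1 (Subgroup.mem_bot.mp h)) k (Subgroup.mem_bot.mpr hk)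

theorem r2c_mk_eq_one (N : Subgroup P) [N.Normal] (g : P) :
    QuotientGroup.mk' N g = 1 ↔ g ∈ N := by
  rw [QuotientGroup.mk'_apply, QuotientGroup.eq_one_iff]

theorem r2c_exists_of_mk_eq (N : Subgroup P) [N.Normal] (u v : P)
    (h : QuotientGroup.mk' N u = QuotientGroup.mk' N v) : ∃ z ∈ N, u = v * z := by
  refine ⟨v⁻¹ * u, ?_, by group⟩
  rw [← r2c_mk_eq_one, map_mul, map_inv, h, inv_mul_cancel]

/-- From `g u g⁻¹ u⁻¹ ∈ N`, the images of `g` and `u` modulo `N` commute. -/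
theorem r2c_commute_mk (N : Subgroup P) [N.Normal] (g u : P) (h : g * u * g⁻¹ * u⁻¹ ∈ N) :
    Commute (QuotientGroup.mk' N g) (QuotientGroup.mk' N u) := by
  have h3 := (r2c_mk_eq_one N _).mpr h
  rw [map_mul, map_mul, map_mul, map_inv, map_inv] at h3
  exact mul_inv_eq_iff_eq_mul.mp (mul_inv_eq_one.mp h3)

/-- `r2c_comm_zpow_left` modulo a normal subgroup. -/
theorem r2c_comm_zpow_left_mod (N : Subgroup P) [N.Normal] (a b : P)
    (h : a * (a * b * a⁻¹ * b⁻¹) * a⁻¹ * (a * b * a⁻¹ * b⁻¹)⁻¹ ∈ N) (n : ℤ) :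
    ∃ z ∈ N, a ^ n * b * (a ^ n)⁻¹ * b⁻¹ = (a * b * a⁻¹ * b⁻¹) ^ n * z := by
  apply r2c_exists_of_mk_eq N
  have hc := (r2c_commute_mk N a _ h).symm
  rw [map_mul, map_mul, map_mul, map_inv, map_inv] at hc
  have h4 := r2c_comm_zpow_left (QuotientGroup.mk' N a) (QuotientGroup.mk' N b) hc n
  simp only [map_mul, map_inv, map_zpow]
  exact h4

/-- `r2c_comm_zpow_right` modulo a normal subgroup. -/
theorem r2c_comm_zpow_right_mod (N : Subgroup P) [N.Normal] (a b : P)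
    (h : b * (a * b * a⁻¹ * b⁻¹) * b⁻¹ * (a * b * a⁻¹ * b⁻¹)⁻¹ ∈ N) (n : ℤ) :
    ∃ z ∈ N, a * b ^ n * a⁻¹ * (b ^ n)⁻¹ = (a * b * a⁻¹ * b⁻¹) ^ n * z := by
  apply r2c_exists_of_mk_eq N
  have hc := (r2c_commute_mk N b _ h).symm
  rw [map_mul, map_mul, map_mul, map_inv, map_inv] at hc
  have h4 := r2c_comm_zpow_right (QuotientGroup.mk' N a) (QuotientGroup.mk' N b) hc n
  simp only [map_mul, map_inv, map_zpow]
  exact h4

/-- Powers of a product with an element of a normal subgroup. -/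
theorem r2c_mul_zpow_mod (N : Subgroup P) [N.Normal] (a e : P) (he : e ∈ N) (k : ℤ) :
    ∃ e' ∈ N, (a * e) ^ k = a ^ k * e' := by
  apply r2c_exists_of_mk_eq N
  rw [map_zpow, map_zpow, map_mul, (r2c_mk_eq_one N e).mpr he, mul_one]

/-- A normal subgroup `K` of index `p` in `N`: `N` is generated by `K` and any element outside. -/
theorem r2c_gen [Finite P] {p : ℕ} [Fact p.Prime] (K N : Subgroup P) [K.Normal] (hKN : K ≤ N)
    (hcard : Nat.card N = p * Nat.card K) (x : P) (hxN : x ∈ N) (hxK : x ∉ K) :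
    ∀ n ∈ N, ∃ k : ℤ, ∃ e ∈ K, n = x ^ k * e := by
  have hpp : p.Prime := Fact.out
  have hle : zpowers x ⊔ K ≤ N := sup_le (by rwa [zpowers_le]) hKN
  have hKL : K ≤ zpowers x ⊔ K := le_sup_right
  have hL : zpowers x ⊔ K = N := by
    apply Subgroup.eq_of_le_of_card_ge hle
    obtain ⟨d, hd⟩ := Subgroup.card_dvd_of_le hKL
    have hKpos : 0 < Nat.card K := Nat.card_pos
    have hd1 : d ≠ 1 := by
      rintro rfl
      rw [mul_one] at hd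
      have h2 : K = zpowers x ⊔ K := Subgroup.eq_of_le_of_card_ge hKL (le_of_eq hd)
      apply hxK
      rw [h2]
      exact mem_sup_left (mem_zpowers x)
    have hdp : d ∣ p := by
      have h1 : Nat.card (zpowers x ⊔ K : Subgroup P) ∣ Nat.card N := Subgroup.card_dvd_of_le hle
      rw [hd, hcard, mul_comm] at h1
      exact Nat.dvd_of_mul_dvd_mul_right hKpos h1
    rcases (Nat.dvd_prime hpp).mp hdp with h | h
    · exact absurd h hd1
    · rw [hd, h, hcard, mul_comm]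
  intro n hn
  rw [← hL] at hn
  obtain ⟨a, ha, e, he, rfl⟩ := Subgroup.mem_sup_of_normal_right.mp hn
  obtain ⟨k, rfl⟩ := mem_zpowers_iff.mp ha
  exact ⟨k, e, he, rfl⟩

/-- Normal subgroups `K ≤ N` of a `p`-group with `|N : K| = p`: `N / K` is central. -/
theorem r2c_central_mod [Finite P] {p : ℕ} [Fact p.Prime] (hP : IsPGroup p P) (K N : Subgroup P)
    [K.Normal] [N.Normal] (hKN : K ≤ N) (hcard : Nat.card N = p * Nat.card K) :
    ∀ n ∈ N, ∀ g : P, g * n * g⁻¹ * n⁻¹ ∈ K := by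
  have hpp : p.Prime := Fact.out
  have hne : K ≠ N := by
    intro h
    rw [h] at hcard
    have hpos : 0 < Nat.card N := Nat.card_pos
    have h2 : 1 * Nat.card N < p * Nat.card N := Nat.mul_lt_mul_of_pos_right hpp.one_lt hpos
    omega
  obtain ⟨x, hxN, hxK, -, hxc⟩ := Cfsg.Agent.S0129.central_ext hP K N hKN hne
  intro n hn g
  obtain ⟨k, e, he, rfl⟩ := r2c_gen K N hKN hcard x hxN hxK n hn
  rw [← r2c_mk_eq_one K]
  have h1 : QuotientGroup.mk' K e = 1 := (r2c_mk_eq_one K e).mpr he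
  have h2 : Commute (QuotientGroup.mk' K g) (QuotientGroup.mk' K x) := r2c_commute_mk K g x (hxc g)
  have h5 : Commute (QuotientGroup.mk' K g) (QuotientGroup.mk' K x ^ k) := Commute.zpow_right h2 k
  simp only [map_mul, map_inv, map_zpow, h1, mul_one]
  rw [h5.eq, mul_inv_cancel_right, mul_inv_cancel]

/-- A `p`-group (`p` odd) all of whose subgroups of exponent `p` have order at most `p` is
cyclic. -/
theorem r2c_isCyclic_of_exp_le [Finite P] {p : ℕ} [Fact p.Prime] (hp : p ≠ 2) (hP : IsPGroup p P)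
    (h : ∀ A : Subgroup P, (∀ a ∈ A, a ^ p = 1) → Nat.card A ≤ p) : IsCyclic P := by
  by_contra hnc
  obtain ⟨A, -, hA, hAcard⟩ := Cfsg.Agent.S0126.result hp hP hnc
  have h1 := h A hA.2
  rw [hAcard] at h1
  have hpp : p.Prime := Fact.out
  nlinarith [hpp.two_le]

/-- A chain of normal subgroups of orders `p`, `p ^ 2` below a normal subgroup of order `p ^ 3`
of a `p`-group, which is part of a central series. -/
theorem r2c_chain [Finite P] {p : ℕ} [Fact p.Prime] (hP : IsPGroup p P) (E : Subgroup P)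
    [E.Normal] (hEcard : Nat.card E = p ^ 3) :
    ∃ E₀ Z : Subgroup P, E₀.Normal ∧ Z.Normal ∧ Z ≤ E₀ ∧ E₀ ≤ E ∧ Nat.card E₀ = p ^ 2 ∧
      Nat.card Z = p ∧ (∀ z ∈ Z, ∀ g : P, g * z = z * g) ∧
      (∀ e ∈ E₀, ∀ g : P, g * e * g⁻¹ * e⁻¹ ∈ Z) ∧
      (∀ e ∈ E, ∀ g : P, g * e * g⁻¹ * e⁻¹ ∈ E₀) := by
  obtain ⟨E₀, hE₀n, hE₀E, hE₀card⟩ := exists_normal_le_card hP E 3 hEcard 2 (by norm_num)
  have := hE₀n
  obtain ⟨Z, hZn, hZE₀, hZcard⟩ := exists_normal_le_card hP E₀ 2 hE₀card 1 (by norm_num)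
  have := hZn
  rw [pow_one] at hZcard
  refine ⟨E₀, Z, hE₀n, hZn, hZE₀, hE₀E, hE₀card, hZcard, ?_, ?_, ?_⟩
  · intro z hz g
    have h := r2c_central_mod hP ⊥ Z bot_le (by rw [Subgroup.card_bot, mul_one, hZcard]) z hz g
    rw [Subgroup.mem_bot] at h
    exact mul_inv_eq_iff_eq_mul.mp (mul_inv_eq_one.mp h)
  · exact r2c_central_mod hP Z E₀ hZE₀ (by rw [hZcard, hE₀card, pow_two])
  · exact r2c_central_mod hP E₀ E hE₀E (by rw [hE₀card, hEcard]; ring)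

end r2cGeneric

section r2cMain

variable {P : Type*} [Group P] [Finite P] {p : ℕ} [Fact p.Prime]

/-- **Core of B&G 4.8.** Let `P` be a `p`-group, `p > 3`, whose elements of order dividing `p`
form a nonabelian subgroup `E` of order `p ^ 3`, and let `𝔄` be a set of automorphisms of odd order
with `P = [P, 𝔄]`. Then `P = E C_P(E)`; moreover `Z = Z(E)` has order `p`, is central in `P` and
contains all commutators of `E`. -/
theorem r2c_main (hp : 3 < p) (hP : IsPGroup p P)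
    (E : Subgroup P) (hE : ∀ g : P, g ∈ E ↔ g ^ p = 1) (hEcard : Nat.card E = p ^ 3)
    (hEnc : ¬ ∀ a ∈ E, ∀ b ∈ E, a * b = b * a)
    (𝔄 : Set (MulAut P)) (hodd : ∀ α ∈ 𝔄, ∃ m : ℕ, Odd m ∧ α ^ m = 1)
    (hgen : ∀ N : Subgroup P, (∀ α ∈ 𝔄, ∀ r : P, r⁻¹ * α r ∈ N) → N = ⊤) :
    ∃ Z : Subgroup P, Nat.card Z = p ∧ Z ≤ E ∧ (∀ z ∈ Z, ∀ g : P, g * z = z * g) ∧
      (∀ e ∈ E, e ∈ centralizer (E : Set P) → e ∈ Z) ∧
      (∀ a ∈ E, ∀ b ∈ E, a * b * a⁻¹ * b⁻¹ ∈ Z) ∧ E ⊔ centralizer (E : Set P) = ⊤ := by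
  classical
  have hpp : p.Prime := Fact.out
  have hp2 : p ≠ 2 := by omega
  have hEn : E.Normal := ⟨fun e he g => by
    rw [hE] at he ⊢
    rw [conj_pow, he, mul_one, mul_inv_cancel]⟩
  obtain ⟨E₀, Z, hE₀n, hZn, hZE₀, hE₀E, hE₀card, hZcard, hZc, hE₀c, hEc⟩ :=
    r2c_chain hP E hEcard
  have hEp : ∀ e ∈ E, e ^ p = 1 := fun e he => (hE e).mp he
  have hE₀comm : ∀ a ∈ E₀, ∀ b ∈ E₀, a * b = b * a := by
    intro a ha b hb
    have h0 : IsMulCommutative ↥E₀ := IsPGroup.isMulCommutative_of_card_eq_prime_sq hE₀card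
    have h1 := h0.is_comm.comm ⟨a, ha⟩ ⟨b, hb⟩
    exact congrArg Subtype.val h1
  -- the generator `x` of `E` modulo `E₀`
  have hx : ∃ x ∈ E, x ∉ E₀ := by
    by_contra hcon
    have h1 : E ≤ E₀ := fun e he => by
      by_contra h2
      exact hcon ⟨e, he, h2⟩
    have h2 : E = E₀ := le_antisymm h1 hE₀E
    rw [h2, hE₀card] at hEcard
    have h3 := Nat.pow_right_injective hpp.two_le hEcard
    omega
  obtain ⟨x, hxE, hxE₀⟩ := hx
  have hxp : x ^ p = 1 := hEp x hxE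
  have hEgen : ∀ e ∈ E, ∃ k : ℤ, ∃ e₀ ∈ E₀, e = x ^ k * e₀ :=
    r2c_gen E₀ E hE₀E (by rw [hE₀card, hEcard]; ring) x hxE hxE₀
  have hE₀gen : ∀ y ∈ E₀, y ∉ Z → ∀ e ∈ E₀, ∃ k : ℤ, ∃ z ∈ Z, e = y ^ k * z := fun y hy hyZ =>
    r2c_gen Z E₀ hZE₀ (by rw [hZcard, hE₀card, pow_two]) y hy hyZ
  have hZcomm : ∀ z ∈ Z, ∀ g : P, Commute g z := fun z hz g => hZc z hz g
  -- `x` does not commute with any `y ∈ E₀ ∖ Z`
  have hxy : ∀ y ∈ E₀, y ∉ Z → x * y * x⁻¹ * y⁻¹ ≠ 1 := by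
    intro y hy hyZ h1
    have hxyc : Commute x y := mul_inv_eq_iff_eq_mul.mp (mul_inv_eq_one.mp h1)
    apply hEnc
    have key : ∀ e ∈ E, ∃ k l : ℤ, ∃ z ∈ Z, e = x ^ k * (y ^ l * z) := by
      intro e he
      obtain ⟨k, e₀, he₀, rfl⟩ := hEgen e he
      obtain ⟨l, z, hz, rfl⟩ := hE₀gen y hy hyZ e₀ he₀
      exact ⟨k, l, z, hz, rfl⟩
    intro a ha b hb
    obtain ⟨k, l, z, hz, rfl⟩ := key a ha
    obtain ⟨k', l', z', hz', rfl⟩ := key b hb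
    have h2 : Commute (x ^ k * (y ^ l * z)) (x ^ k' * (y ^ l' * z')) := by
      apply Commute.mul_left
      · apply Commute.mul_right
        · exact (Commute.refl x).zpow_zpow k k'
        · apply Commute.mul_right
          · exact hxyc.zpow_zpow k l'
          · exact hZcomm z' hz' _
      · apply Commute.mul_left
        · apply Commute.mul_right
          · exact hxyc.symm.zpow_zpow l k'
          · apply Commute.mul_right
            · exact (Commute.refl y).zpow_zpow l l'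
            · exact hZcomm z' hz' _
        · exact (hZcomm z hz _).symm
    exact h2.eq
  -- `Z` is generated by any of its nontrivial elements
  have hZgen : ∀ ζ ∈ Z, ζ ≠ 1 → ∀ z ∈ Z, ∃ b : ℤ, z = ζ ^ b := by
    intro ζ hζ hζ1 z hz
    have h1 : (⟨z, hz⟩ : ↥Z) ∈ zpowers (⟨ζ, hζ⟩ : ↥Z) :=
      mem_zpowers_of_prime_card (p := p) hZcard (fun h => hζ1 (congrArg Subtype.val h))
    obtain ⟨b, hb⟩ := mem_zpowers_iff.mp h1
    exact ⟨b, (congrArg Subtype.val hb).symm⟩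
  have hy₁ : ∃ y ∈ E₀, y ∉ Z := by
    by_contra hcon
    have h1 : E₀ ≤ Z := fun e he => by
      by_contra h2
      exact hcon ⟨e, he, h2⟩
    have h2 : E₀ = Z := le_antisymm h1 hZE₀
    rw [h2, hZcard] at hE₀card
    have h3 : p ^ 1 = p ^ 2 := by rw [pow_one]; exact hE₀card
    have h4 := Nat.pow_right_injective hpp.two_le h3
    omega
  obtain ⟨y₁, hy₁E₀, hy₁Z⟩ := hy₁
  obtain ⟨ζ₁, hζ₁def⟩ : ∃ ζ₁, ζ₁ = x * y₁ * x⁻¹ * y₁⁻¹ := ⟨_, rfl⟩
  have hζ₁Z : ζ₁ ∈ Z := by rw [hζ₁def]; exact hE₀c y₁ hy₁E₀ x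
  have hζ₁1 : ζ₁ ≠ 1 := by rw [hζ₁def]; exact hxy y₁ hy₁E₀ hy₁Z
  have hζ₁p : ζ₁ ^ p = 1 := hEp ζ₁ (hE₀E (hZE₀ hζ₁Z))
  have hxy₁l : ∀ i : ℤ, x ^ i * y₁ * (x ^ i)⁻¹ * y₁⁻¹ = ζ₁ ^ i := by
    intro i
    rw [hζ₁def]
    exact r2c_comm_zpow_left x y₁ (by rw [← hζ₁def]; exact (hZcomm ζ₁ hζ₁Z x).symm) i
  have hxy₁r : ∀ i : ℤ, x * y₁ ^ i * x⁻¹ * (y₁ ^ i)⁻¹ = ζ₁ ^ i := by
    intro i
    rw [hζ₁def]
    exact r2c_comm_zpow_right x y₁ (by rw [← hζ₁def]; exact (hZcomm ζ₁ hζ₁Z y₁).symm) i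
  -- membership in `M = C_P(E₀)` and in `C = C_P(E)`
  have hM_of : ∀ y ∈ E₀, y ∉ Z → ∀ m : P, m * y = y * m → m ∈ centralizer (E₀ : Set P) := by
    intro y hy hyZ m hm
    rw [mem_centralizer_iff]
    intro e he
    obtain ⟨k, z, hz, rfl⟩ := hE₀gen y hy hyZ e he
    have h1 : Commute m (y ^ k) := Commute.zpow_right hm k
    have h2 : Commute m z := hZcomm z hz m
    exact ((h1.mul_right h2).eq).symm
  have hC_of : ∀ m ∈ centralizer (E₀ : Set P), m * x = x * m → m ∈ centralizer (E : Set P) := by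
    intro m hm hmx
    rw [mem_centralizer_iff]
    intro e he
    obtain ⟨k, e₀, he₀, rfl⟩ := hEgen e he
    have h1 : Commute m (x ^ k) := Commute.zpow_right hmx k
    have h2 : Commute m e₀ := ((mem_centralizer_iff.mp hm) e₀ he₀).symm
    exact ((h1.mul_right h2).eq).symm
  have hE₀M : E₀ ≤ centralizer (E₀ : Set P) := fun a ha =>
    mem_centralizer_iff.mpr (fun b hb => hE₀comm b hb a ha)
  have hCM : centralizer (E : Set P) ≤ centralizer (E₀ : Set P) :=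
    Subgroup.centralizer_le (fun e he => hE₀E he)
  have hZC : Z ≤ centralizer (E : Set P) := fun z hz =>
    mem_centralizer_iff.mpr (fun e _ => hZc z hz e)
  have hxg : ∀ g : P, x * g * x⁻¹ * g⁻¹ ∈ E₀ := by
    intro g
    have h1 := E₀.inv_mem (hEc x hxE g)
    have h2 : (g * x * g⁻¹ * x⁻¹)⁻¹ = x * g * x⁻¹ * g⁻¹ := by group
    rwa [h2] at h1
  -- every element is `x ^ i * m` with `m ∈ M`
  have hdecomp : ∀ r : P, ∃ i : ℤ, ∃ m ∈ centralizer (E₀ : Set P), r = x ^ i * m := by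
    intro r
    obtain ⟨i, hi⟩ := hZgen ζ₁ hζ₁Z hζ₁1 _ (hE₀c y₁ hy₁E₀ r)
    refine ⟨i, (x ^ i)⁻¹ * r, ?_, by group⟩
    apply hM_of y₁ hy₁E₀ hy₁Z
    have h2 : r * y₁ * r⁻¹ = x ^ i * y₁ * (x ^ i)⁻¹ := by
      have e1 : r * y₁ * r⁻¹ = (r * y₁ * r⁻¹ * y₁⁻¹) * y₁ := by group
      have e2 : x ^ i * y₁ * (x ^ i)⁻¹ = (x ^ i * y₁ * (x ^ i)⁻¹ * y₁⁻¹) * y₁ := by group
      rw [e1, e2, hi, hxy₁l i]
    calc (x ^ i)⁻¹ * r * y₁ = (x ^ i)⁻¹ * (r * y₁ * r⁻¹) * r := by group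
      _ = (x ^ i)⁻¹ * (x ^ i * y₁ * (x ^ i)⁻¹) * r := by rw [h2]
      _ = y₁ * ((x ^ i)⁻¹ * r) := by group
  -- `E ∩ M ≤ E₀`
  have hEM : ∀ e ∈ E, e ∈ centralizer (E₀ : Set P) → e ∈ E₀ := by
    intro e he heM
    obtain ⟨k, e₀, he₀, rfl⟩ := hEgen e he
    have h1 : x ^ k ∈ centralizer (E₀ : Set P) := by
      have h2 := mul_mem heM (inv_mem (hE₀M he₀))
      rwa [mul_inv_cancel_right] at h2
    have h3 : y₁ * x ^ k = x ^ k * y₁ := (mem_centralizer_iff.mp h1) y₁ hy₁E₀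
    have h4 : ζ₁ ^ k = 1 := by
      rw [← hxy₁l k, ← h3]
      group
    have h5 : (p : ℤ) ∣ k := r2c_dvd_of_zpow_eq_one ζ₁ hζ₁p hζ₁1 k h4
    rw [r2c_zpow_eq_one_of_dvd x hxp k h5, one_mul]
    exact he₀
  -- `E ∩ C ≤ Z`
  have hEC : ∀ e ∈ E, e ∈ centralizer (E : Set P) → e ∈ Z := by
    intro e he hec
    have he₀ : e ∈ E₀ := hEM e he (hCM hec)
    obtain ⟨l, z, hz, rfl⟩ := hE₀gen y₁ hy₁E₀ hy₁Z e he₀
    have h1 : y₁ ^ l ∈ centralizer (E : Set P) := by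
      have h2 := mul_mem hec (inv_mem (hZC hz))
      rwa [mul_inv_cancel_right] at h2
    have h3 : x * y₁ ^ l = y₁ ^ l * x := (mem_centralizer_iff.mp h1) x hxE
    have h4 : ζ₁ ^ l = 1 := by
      rw [← hxy₁r l, h3]
      group
    have h5 : (p : ℤ) ∣ l := r2c_dvd_of_zpow_eq_one ζ₁ hζ₁p hζ₁1 l h4
    rw [r2c_zpow_eq_one_of_dvd y₁ (hEp y₁ (hE₀E hy₁E₀)) l h5, one_mul]
    exact hz
  -- `[E, E] ≤ Z`
  have hEE : ∀ a ∈ E, ∀ b ∈ E, a * b * a⁻¹ * b⁻¹ ∈ Z := by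
    intro a ha b hb
    obtain ⟨k, a₀, ha₀, rfl⟩ := hEgen a ha
    obtain ⟨l, b₀, hb₀, rfl⟩ := hEgen b hb
    rw [← r2c_mk_eq_one Z]
    have hcen : ∀ e ∈ E₀, ∀ q : P ⧸ Z, Commute q (QuotientGroup.mk' Z e) := by
      intro e he q
      obtain ⟨g, rfl⟩ := QuotientGroup.mk'_surjective Z q
      exact r2c_commute_mk Z g e (hE₀c e he g)
    have hcomm : Commute (QuotientGroup.mk' Z (x ^ k * a₀)) (QuotientGroup.mk' Z (x ^ l * b₀)) := by
      rw [map_mul, map_mul, map_zpow, map_zpow]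
      apply Commute.mul_left
      · apply Commute.mul_right
        · exact (Commute.refl _).zpow_zpow k l
        · exact hcen b₀ hb₀ _
      · exact (hcen a₀ ha₀ _).symm
    have h6 : QuotientGroup.mk' Z (x ^ k * a₀ * (x ^ l * b₀) * (x ^ k * a₀)⁻¹ * (x ^ l * b₀)⁻¹) =
        QuotientGroup.mk' Z (x ^ k * a₀) * QuotientGroup.mk' Z (x ^ l * b₀) *
          (QuotientGroup.mk' Z (x ^ k * a₀))⁻¹ * (QuotientGroup.mk' Z (x ^ l * b₀))⁻¹ := by
      rw [map_mul, map_mul, map_mul, map_inv, map_inv]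
    rw [h6, hcomm.eq, mul_inv_cancel_right, mul_inv_cancel]
  refine ⟨Z, hZcard, hZE₀.trans hE₀E, hZc, hEC, hEE, ?_⟩
  by_contra hne
  -- a "bad" element
  have hbad : ∃ t ∈ centralizer (E₀ : Set P), x * t * x⁻¹ * t⁻¹ ∉ Z := by
    by_contra hno
    apply hne
    rw [eq_top_iff]
    intro r _
    obtain ⟨i, m, hm, rfl⟩ := hdecomp r
    have hmZ : x * m * x⁻¹ * m⁻¹ ∈ Z := by
      by_contra h1
      exact hno ⟨m, hm, h1⟩
    obtain ⟨b, hb⟩ := hZgen ζ₁ hζ₁Z hζ₁1 _ hmZ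
    have hc : m * (y₁ ^ b)⁻¹ ∈ centralizer (E : Set P) := by
      apply hC_of
      · exact mul_mem hm (inv_mem (hE₀M (zpow_mem hy₁E₀ b)))
      · have e1 : x * m * x⁻¹ = ζ₁ ^ b * m := by
          rw [← hb]; group
        have e2 : x * y₁ ^ b * x⁻¹ = ζ₁ ^ b * y₁ ^ b := by
          rw [← hxy₁r b]; group
        have e3 : x * (m * (y₁ ^ b)⁻¹) * x⁻¹ = (x * m * x⁻¹) * (x * y₁ ^ b * x⁻¹)⁻¹ := by group
        rw [e1, e2] at e3
        have e4 : ζ₁ ^ b * m * (ζ₁ ^ b * y₁ ^ b)⁻¹ = ζ₁ ^ b * (m * (y₁ ^ b)⁻¹) * (ζ₁ ^ b)⁻¹ := by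
          rw [mul_inv_rev]; group
        have e5 : ζ₁ ^ b * (m * (y₁ ^ b)⁻¹) * (ζ₁ ^ b)⁻¹ = m * (y₁ ^ b)⁻¹ := by
          rw [(hZcomm _ (zpow_mem hζ₁Z b) (m * (y₁ ^ b)⁻¹)).eq.symm, mul_inv_cancel_right]
        rw [e4, e5] at e3
        -- e3 : x * (m * (y₁ ^ b)⁻¹) * x⁻¹ = m * (y₁ ^ b)⁻¹
        exact (mul_inv_eq_iff_eq_mul.mp e3).symm
    have h3 : x ^ i * m = x ^ i * (m * (y₁ ^ b)⁻¹) * y₁ ^ b := by group
    rw [h3]
    exact mul_mem (mul_mem (mem_sup_left (zpow_mem hxE i)) (mem_sup_right hc))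
      (mem_sup_left (hE₀E (zpow_mem hy₁E₀ b)))
  obtain ⟨t₀, ht₀M, ht₀bad⟩ := hbad
  -- general facts about a bad element
  have hbadfacts : ∀ t ∈ centralizer (E₀ : Set P), x * t * x⁻¹ * t⁻¹ ∉ Z →
      (x * t * x⁻¹ * t⁻¹ ∈ E₀) ∧
      (∀ i : ℤ, x * t ^ i * x⁻¹ * (t ^ i)⁻¹ = (x * t * x⁻¹ * t⁻¹) ^ i) ∧
      (∀ c ∈ centralizer (E : Set P), ∀ i : ℤ,
        x * (c * t ^ i) * x⁻¹ * (c * t ^ i)⁻¹ = (x * t * x⁻¹ * t⁻¹) ^ i) ∧
      t ^ p ∈ centralizer (E : Set P) := by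
    intro t htM _
    have hyE₀ := hxg t
    have hyt : Commute (x * t * x⁻¹ * t⁻¹) t := (mem_centralizer_iff.mp htM) _ hyE₀
    have hpow : ∀ i : ℤ, x * t ^ i * x⁻¹ * (t ^ i)⁻¹ = (x * t * x⁻¹ * t⁻¹) ^ i :=
      fun i => r2c_comm_zpow_right x t hyt i
    refine ⟨hyE₀, hpow, ?_, ?_⟩
    · intro c hc i
      have hxc : x * c = c * x := (mem_centralizer_iff.mp hc) x hxE
      have e1 : x * (c * t ^ i) * x⁻¹ * (c * t ^ i)⁻¹ =
          (x * c * x⁻¹ * c⁻¹) * (c * (x * t ^ i * x⁻¹ * (t ^ i)⁻¹) * c⁻¹) := by group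
      have e2 : x * c * x⁻¹ * c⁻¹ = 1 := by rw [hxc]; group
      have e3 : c * (x * t * x⁻¹ * t⁻¹) ^ i * c⁻¹ = (x * t * x⁻¹ * t⁻¹) ^ i := by
        have h1 : (x * t * x⁻¹ * t⁻¹) ^ i * c = c * (x * t * x⁻¹ * t⁻¹) ^ i :=
          (mem_centralizer_iff.mp hc) _ (hE₀E (zpow_mem hyE₀ i))
        rw [← h1, mul_inv_cancel_right]
      rw [e1, e2, one_mul, hpow i, e3]
    · apply hC_of _ (pow_mem htM p)
      have h1 := hpow (p : ℤ)
      rw [zpow_natCast, zpow_natCast, hEp _ (hE₀E hyE₀)] at h1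
      exact (mul_inv_eq_iff_eq_mul.mp (mul_inv_eq_one.mp h1)).symm
  -- a bad element generating a cyclic group containing `C`
  have hT1 : ∃ t ∈ centralizer (E₀ : Set P), x * t * x⁻¹ * t⁻¹ ∉ Z ∧
      centralizer (E : Set P) ≤ zpowers t := by
    obtain ⟨hyE₀, hpow, hcpow, htpC⟩ := hbadfacts t₀ ht₀M ht₀bad
    obtain ⟨y, hydef⟩ : ∃ y, y = x * t₀ * x⁻¹ * t₀⁻¹ := ⟨_, rfl⟩
    rw [← hydef] at hyE₀ hpow hcpow ht₀bad
    have hyp : y ^ p = 1 := hEp y (hE₀E hyE₀)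
    have hTmem : ∀ u ∈ centralizer (E : Set P) ⊔ zpowers t₀,
        ∃ c ∈ centralizer (E : Set P), ∃ i : ℤ, u = c * t₀ ^ i := by
      intro u hu
      obtain ⟨c, hc, w, hw, rfl⟩ := Subgroup.mem_sup_of_normal_left.mp hu
      obtain ⟨i, rfl⟩ := mem_zpowers_iff.mp hw
      exact ⟨c, hc, i, rfl⟩
    have hpowC : ∀ i : ℤ, (p : ℤ) ∣ i → t₀ ^ i ∈ centralizer (E : Set P) := by
      rintro i ⟨j, rfl⟩
      rw [zpow_mul, zpow_natCast]
      exact zpow_mem htpC j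
    have hTΩ : ∀ u ∈ centralizer (E : Set P) ⊔ zpowers t₀, u ^ p = 1 → u ∈ Z := by
      intro u hu hup
      obtain ⟨c, hc, i, rfl⟩ := hTmem u hu
      have huE : c * t₀ ^ i ∈ E := (hE _).mpr hup
      have huM : c * t₀ ^ i ∈ centralizer (E₀ : Set P) := mul_mem (hCM hc) (zpow_mem ht₀M i)
      have huE₀ : c * t₀ ^ i ∈ E₀ := hEM _ huE huM
      have h1 : y ^ i ∈ Z := by
        rw [← hcpow c hc i]
        exact hE₀c _ huE₀ x
      have h2 : (p : ℤ) ∣ i := r2c_dvd_of_zpow_mem Z y hyp ht₀bad i h1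
      exact hEC _ huE (mul_mem hc (hpowC i h2))
    have hTcyc : IsCyclic ↥(centralizer (E : Set P) ⊔ zpowers t₀) := by
      apply r2c_isCyclic_of_exp_le hp2 (hP.to_subgroup _)
      intro A hA
      rw [← hZcard]
      let f : ↥A → ↥Z := fun a => ⟨((a : ↥(centralizer (E : Set P) ⊔ zpowers t₀)) : P),
        hTΩ _ (a : ↥(centralizer (E : Set P) ⊔ zpowers t₀)).2 (by
          have h1 := hA a a.2
          exact_mod_cast congrArg Subtype.val h1)⟩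
      apply Nat.card_le_card_of_injective f
      intro a b hab
      have h1 : ((a : ↥(centralizer (E : Set P) ⊔ zpowers t₀)) : P) =
          ((b : ↥(centralizer (E : Set P) ⊔ zpowers t₀)) : P) := by
        have h0 := congrArg (fun z : ↥Z => (z : P)) hab
        exact h0
      exact Subtype.ext (Subtype.ext h1)
    obtain ⟨g, hg⟩ := hTcyc.exists_generator
    obtain ⟨c, hc, i, hgc⟩ := hTmem (g : P) g.2
    have hTle : centralizer (E : Set P) ⊔ zpowers t₀ ≤ zpowers (g : P) := by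
      intro u hu
      obtain ⟨k, hk⟩ := mem_zpowers_iff.mp (hg ⟨u, hu⟩)
      exact mem_zpowers_iff.mpr ⟨k, by
        have h1 := congrArg Subtype.val hk
        simpa using h1⟩
    have hi : ¬ (p : ℤ) ∣ i := by
      intro hdi
      have h1 : (g : P) ∈ centralizer (E : Set P) := by
        rw [hgc]; exact mul_mem hc (hpowC i hdi)
      have h2 : t₀ ∈ centralizer (E : Set P) :=
        (zpowers_le.mpr h1) (hTle (mem_sup_right (mem_zpowers t₀)))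
      apply ht₀bad
      have h3 : x * t₀ = t₀ * x := (mem_centralizer_iff.mp h2) x hxE
      have h4 : y = 1 := by rw [hydef, h3]; group
      rw [h4]; exact one_mem Z
    refine ⟨(g : P), ?_, ?_, le_sup_left.trans hTle⟩
    · rw [hgc]; exact mul_mem (hCM hc) (zpow_mem ht₀M i)
    · rw [hgc, hcpow c hc i]
      intro h2
      exact hi (r2c_dvd_of_zpow_mem Z y hyp ht₀bad i h2)
  obtain ⟨t, htM, htbad, hCt⟩ := hT1
  obtain ⟨hyE₀, hpow, -, -⟩ := hbadfacts t htM htbad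
  obtain ⟨y, hydef⟩ : ∃ y, y = x * t * x⁻¹ * t⁻¹ := ⟨_, rfl⟩
  rw [← hydef] at hyE₀ hpow htbad
  have hyp : y ^ p = 1 := hEp y (hE₀E hyE₀)
  have hyt : Commute y t := (mem_centralizer_iff.mp htM) y hyE₀
  obtain ⟨ζ, hζdef⟩ : ∃ ζ, ζ = x * y * x⁻¹ * y⁻¹ := ⟨_, rfl⟩
  have hζZ : ζ ∈ Z := by rw [hζdef]; exact hE₀c y hyE₀ x
  have hζ1 : ζ ≠ 1 := by rw [hζdef]; exact hxy y hyE₀ htbad
  have hζp : ζ ^ p = 1 := hEp ζ (hE₀E (hZE₀ hζZ))
  have hxyr : ∀ i : ℤ, x * y ^ i * x⁻¹ * (y ^ i)⁻¹ = ζ ^ i := by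
    intro i
    rw [hζdef]
    exact r2c_comm_zpow_right x y (by rw [← hζdef]; exact (hZcomm ζ hζZ y).symm) i
  have hconj_t : ∀ i : ℤ, x * t ^ i * x⁻¹ = y ^ i * t ^ i := by
    intro i; rw [← hpow i]; group
  have hconj_y : ∀ i : ℤ, x * y ^ i * x⁻¹ = ζ ^ i * y ^ i := by
    intro i; rw [← hxyr i]; group
  -- structure of `M`
  have hMsub : ∀ m ∈ centralizer (E₀ : Set P), ∃ e ∈ E₀, ∃ j : ℤ, m = e * t ^ j := by
    intro m hm
    obtain ⟨a, z, hz, ha⟩ := hE₀gen y hyE₀ htbad _ (hxg m)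
    obtain ⟨b, rfl⟩ := hZgen ζ hζZ hζ1 z hz
    have hm'' : m * (t ^ a)⁻¹ * (y ^ b)⁻¹ ∈ centralizer (E : Set P) := by
      apply hC_of
      · exact mul_mem (mul_mem hm (inv_mem (zpow_mem htM a)))
          (inv_mem (hE₀M (zpow_mem hyE₀ b)))
      · have e1 : x * m * x⁻¹ = y ^ a * ζ ^ b * m := by rw [← ha]; group
        have e3 : x * (m * (t ^ a)⁻¹ * (y ^ b)⁻¹) * x⁻¹ =
            (x * m * x⁻¹) * (x * t ^ a * x⁻¹)⁻¹ * (x * y ^ b * x⁻¹)⁻¹ := by group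
        rw [e1, hconj_t a, hconj_y b] at e3
        have hya_m : Commute (y ^ a) m := (mem_centralizer_iff.mp hm) _ (zpow_mem hyE₀ a)
        have hya_t : Commute (y ^ a) (t ^ a) := hyt.zpow_zpow a a
        have hζc : ∀ g : P, Commute g (ζ ^ b) := hZcomm _ (zpow_mem hζZ b)
        have hYc : Commute (y ^ a) (m * (t ^ a)⁻¹) := hya_m.mul_right hya_t.inv_right
        have e4 : y ^ a * ζ ^ b * m * (y ^ a * t ^ a)⁻¹ * (ζ ^ b * y ^ b)⁻¹ =
            m * (t ^ a)⁻¹ * (y ^ b)⁻¹ := by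
          calc y ^ a * ζ ^ b * m * (y ^ a * t ^ a)⁻¹ * (ζ ^ b * y ^ b)⁻¹
              = ζ ^ b * (y ^ a * (m * (t ^ a)⁻¹) * (y ^ a)⁻¹ * (y ^ b)⁻¹) * (ζ ^ b)⁻¹ := by
                rw [(hζc (y ^ a)).eq]; group
            _ = ζ ^ b * (m * (t ^ a)⁻¹ * (y ^ b)⁻¹) * (ζ ^ b)⁻¹ := by
                rw [r2c_conj_eq_of_commute hYc]
            _ = m * (t ^ a)⁻¹ * (y ^ b)⁻¹ := r2c_conj_eq_of_commute (hζc _).symm
        rw [e4] at e3
        exact (mul_inv_eq_iff_eq_mul.mp e3).symm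
    obtain ⟨j', hj'⟩ := mem_zpowers_iff.mp (hCt hm'')
    refine ⟨y ^ b, zpow_mem hyE₀ b, j' + a, ?_⟩
    have e5 : m = (m * (t ^ a)⁻¹ * (y ^ b)⁻¹) * y ^ b * t ^ a := by group
    rw [e5, ← hj', ← (hyt.zpow_zpow b j').eq, mul_assoc, ← zpow_add]
  -- `t` has order at least `p ^ 2` and `ζ` is a `p`-th power of a power of `t`
  have htp : t ^ p ≠ 1 := by
    intro h1
    have h2 : t ∈ E₀ := hEM t ((hE t).mpr h1) htM
    apply htbad
    rw [hydef]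
    exact hE₀c t h2 x
  obtain ⟨s, hs⟩ := mem_zpowers_iff.mp (hCt (hZC hζZ))
  have hps : (p : ℤ) ∣ s := by
    obtain ⟨k, hk⟩ := (IsPGroup.iff_orderOf.mp hP) t
    have hk2 : 2 ≤ k := by
      by_contra hlt
      have hk1 : k ≤ 1 := by omega
      apply htp
      apply orderOf_dvd_iff_pow_eq_one.mp
      rw [hk]
      calc p ^ k ∣ p ^ 1 := pow_dvd_pow p hk1
        _ = p := pow_one p
    have h1 : t ^ (s * p) = 1 := by rw [zpow_mul, hs, zpow_natCast, hζp]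
    have h2 : (orderOf t : ℤ) ∣ s * p := orderOf_dvd_iff_zpow_eq_one.mpr h1
    have h3 : (p : ℤ) * p ∣ s * p := by
      refine dvd_trans ?_ h2
      rw [hk]
      push_cast
      calc (p : ℤ) * p = (p : ℤ) ^ 2 := by ring
        _ ∣ (p : ℤ) ^ k := pow_dvd_pow _ hk2
    exact Int.dvd_of_mul_dvd_mul_right (by exact_mod_cast hpp.ne_zero) h3
  -- the subgroups are characteristic
  have hαE : ∀ α : MulAut P, ∀ e ∈ E, α e ∈ E := fun α e he =>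
    (hE _).mpr (by rw [← map_pow, (hE e).mp he, map_one])
  have hαZ : ∀ α : MulAut P, ∀ z ∈ Z, α z ∈ Z := by
    intro α z hz
    obtain ⟨b, rfl⟩ := hZgen ζ hζZ hζ1 z hz
    rw [map_zpow]
    apply zpow_mem
    rw [hζdef]
    have h1 : α (x * y * x⁻¹ * y⁻¹) = α x * α y * (α x)⁻¹ * (α y)⁻¹ := by
      rw [map_mul, map_mul, map_mul, map_inv, map_inv]
    rw [h1]
    exact hEE _ (hαE α x hxE) _ (hαE α y (hE₀E hyE₀))
  have hF7 : ∀ e ∈ E, t * e * t⁻¹ * e⁻¹ ∈ Z → e ∈ E₀ := by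
    intro e he hte
    obtain ⟨k, e₀, he₀, rfl⟩ := hEgen e he
    have hte₀ : Commute t e₀ := ((mem_centralizer_iff.mp htM) e₀ he₀).symm
    have e1 : t * (x ^ k * e₀) * t⁻¹ * (x ^ k * e₀)⁻¹ =
        t * x ^ k * t⁻¹ * (t * e₀ * t⁻¹ * e₀⁻¹) * (x ^ k)⁻¹ := by group
    rw [e1, r2c_conj_eq_of_commute hte₀, mul_inv_cancel, mul_one] at hte
    have hy' : t * x * t⁻¹ * x⁻¹ = y⁻¹ := by rw [hydef]; group
    obtain ⟨z, hz, hzk⟩ := r2c_comm_zpow_right_mod Z t x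
      (by rw [hy']; exact hE₀c _ (inv_mem hyE₀) x) k
    rw [hy'] at hzk
    have h2 : (y⁻¹) ^ k ∈ Z := by
      rw [hzk] at hte
      have h4 := mul_mem hte (inv_mem hz)
      rwa [mul_inv_cancel_right] at h4
    have h5 : y ^ k ∈ Z := by
      have h6 := inv_mem h2
      rwa [inv_zpow, inv_inv] at h6
    have h6 : (p : ℤ) ∣ k := r2c_dvd_of_zpow_mem Z y hyp htbad k h5
    rw [r2c_zpow_eq_one_of_dvd x hxp k h6, one_mul]
    exact he₀
  have hαE₀ : ∀ α : MulAut P, ∀ e ∈ E₀, α e ∈ E₀ := by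
    intro α e he
    apply hF7 _ (hαE α e (hE₀E he))
    have h1 : t * α e * t⁻¹ * (α e)⁻¹ = α (α⁻¹ t * e * (α⁻¹ t)⁻¹ * e⁻¹) := by
      rw [map_mul, map_mul, map_mul, map_inv, map_inv, MulAut.apply_inv_self]
    rw [h1]
    exact hαZ α _ (hE₀c e he _)
  have hαM : ∀ α : MulAut P, ∀ m ∈ centralizer (E₀ : Set P),
      α m ∈ centralizer (E₀ : Set P) := by
    intro α m hm
    rw [mem_centralizer_iff]
    intro e he
    have h1 : α (α⁻¹ e) = e := MulAut.apply_inv_self _ α e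
    rw [← h1, ← map_mul, ← map_mul, (mem_centralizer_iff.mp hm) _ (hαE₀ α⁻¹ e he)]
  -- the key computation: every `α ∈ 𝔄` centralises `E / E₀`
  have key : ∀ α ∈ 𝔄, x⁻¹ * α x ∈ E₀ := by
    intro α hα
    obtain ⟨n, e₁, he₁, hαx⟩ := hEgen (α x) (hαE α x hxE)
    have hU : α t ∈ centralizer (E₀ : Set P) := hαM α t htM
    obtain ⟨e₂, he₂, ρ, hαt⟩ := hMsub (α t) hU
    obtain ⟨s', rfl⟩ := hps
    have hw1 : α ζ = ζ ^ ρ := by
      rw [← hs, map_zpow, hαt]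
      have hc0 : Commute e₂ t := (mem_centralizer_iff.mp htM) e₂ he₂
      have hc : Commute e₂ (t ^ ρ) := hc0.zpow_right ρ
      rw [hc.mul_zpow, zpow_mul e₂, zpow_natCast, hEp e₂ (hE₀E he₂), one_zpow, one_mul,
        ← zpow_mul, ← zpow_mul, mul_comm]
    have hw : ∃ z₁ ∈ Z, x * α t * x⁻¹ * (α t)⁻¹ = z₁ * y ^ ρ := by
      refine ⟨x * e₂ * x⁻¹ * e₂⁻¹, hE₀c e₂ he₂ x, ?_⟩
      rw [hαt]
      have e1 : x * (e₂ * t ^ ρ) * x⁻¹ * (e₂ * t ^ ρ)⁻¹ =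
          (x * e₂ * x⁻¹ * e₂⁻¹) * (e₂ * (x * t ^ ρ * x⁻¹ * (t ^ ρ)⁻¹) * e₂⁻¹) := by group
      rw [e1, hpow ρ, r2c_conj_eq_of_commute (hE₀comm e₂ he₂ _ (zpow_mem hyE₀ ρ))]
    obtain ⟨z₁, hz₁, hw⟩ := hw
    have hwE₀ : x * α t * x⁻¹ * (α t)⁻¹ ∈ E₀ := hxg _
    obtain ⟨z₂, hz₂, hY1⟩ := r2c_comm_zpow_left_mod Z x (α t) (hE₀c _ hwE₀ x) n
    have hαy : α y = (y ^ ρ) ^ n * (z₁ ^ n * z₂) := by
      have e0 : α y = α (x * t * x⁻¹ * t⁻¹) := by rw [← hydef]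
      have e1 : α (x * t * x⁻¹ * t⁻¹) = α x * α t * (α x)⁻¹ * (α t)⁻¹ := by
        rw [map_mul, map_mul, map_mul, map_inv, map_inv]
      rw [e0, e1, hαx]
      have e2 : x ^ n * e₁ * α t * (x ^ n * e₁)⁻¹ * (α t)⁻¹ =
          x ^ n * (e₁ * α t * e₁⁻¹) * (x ^ n)⁻¹ * (α t)⁻¹ := by group
      rw [e2, r2c_conj_eq_of_commute ((mem_centralizer_iff.mp hU) e₁ he₁), hY1, hw]
      have hc : Commute z₁ (y ^ ρ) := (hZcomm z₁ hz₁ _).symm
      rw [hc.mul_zpow, ← (hZcomm _ (zpow_mem hz₁ n) ((y ^ ρ) ^ n)).eq, mul_assoc]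
    have hαyE₀ : α y ∈ E₀ := hαE₀ α y hyE₀
    have hw2 : α ζ = (ζ ^ (ρ * n)) ^ n := by
      have e0 : α ζ = α (x * y * x⁻¹ * y⁻¹) := by rw [← hζdef]
      have e1 : α (x * y * x⁻¹ * y⁻¹) = α x * α y * (α x)⁻¹ * (α y)⁻¹ := by
        rw [map_mul, map_mul, map_mul, map_inv, map_inv]
      rw [e0, e1, hαx]
      have e2 : x ^ n * e₁ * α y * (x ^ n * e₁)⁻¹ * (α y)⁻¹ =
          x ^ n * (e₁ * α y * e₁⁻¹) * (x ^ n)⁻¹ * (α y)⁻¹ := by group
      rw [e2, r2c_conj_eq_of_commute (hE₀comm e₁ he₁ _ hαyE₀)]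
      rw [r2c_comm_zpow_left x (α y) ((hZcomm _ (hE₀c _ hαyE₀ x) x).symm) n]
      congr 1
      rw [hαy]
      have e3 : x * ((y ^ ρ) ^ n * (z₁ ^ n * z₂)) * x⁻¹ * ((y ^ ρ) ^ n * (z₁ ^ n * z₂))⁻¹ =
          (x * (y ^ ρ) ^ n * x⁻¹ * ((y ^ ρ) ^ n)⁻¹) *
            ((y ^ ρ) ^ n * (x * (z₁ ^ n * z₂) * x⁻¹ * (z₁ ^ n * z₂)⁻¹) * ((y ^ ρ) ^ n)⁻¹) := by
        group
      have hz₃ : z₁ ^ n * z₂ ∈ Z := mul_mem (zpow_mem hz₁ n) hz₂
      have e4 : x * (z₁ ^ n * z₂) * x⁻¹ * (z₁ ^ n * z₂)⁻¹ = 1 := by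
        rw [(hZcomm _ hz₃ x).eq, mul_inv_cancel_right, mul_inv_cancel]
      rw [e3, e4, mul_one, mul_inv_cancel, mul_one, ← zpow_mul, hxyr]
    have h1 : ζ ^ (ρ * n * n - ρ) = 1 := by
      have h2 : ζ ^ ρ = ζ ^ (ρ * n * n) := by rw [← hw1, hw2, ← zpow_mul]
      rw [zpow_sub, ← h2, mul_inv_cancel]
    have h2 : (p : ℤ) ∣ ρ * n * n - ρ := r2c_dvd_of_zpow_eq_one ζ hζp hζ1 _ h1
    have hρ : ¬ (p : ℤ) ∣ ρ := by
      intro hd
      have h3 : α ζ = 1 := by rw [hw1]; exact r2c_zpow_eq_one_of_dvd ζ hζp ρ hd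
      exact hζ1 ((map_eq_one_iff α α.injective).mp h3)
    have hprime : Prime (p : ℤ) := Nat.prime_iff_prime_int.mp hpp
    have h3 : (p : ℤ) ∣ ρ * ((n - 1) * (n + 1)) := by
      have e : ρ * ((n - 1) * (n + 1)) = ρ * n * n - ρ := by ring
      rw [e]; exact h2
    have h4 : (p : ℤ) ∣ (n - 1) * (n + 1) := (hprime.dvd_or_dvd h3).resolve_left hρ
    obtain ⟨m, hmodd, hαm⟩ := hodd α hα
    have hiter : ∀ j : ℕ, ∃ e ∈ E₀, (α ^ j) x = x ^ (n ^ j) * e := by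
      intro j
      induction j with
      | zero => exact ⟨1, one_mem _, by simp⟩
      | succ j ih =>
        obtain ⟨e, he, hj⟩ := ih
        obtain ⟨e', he', hpw⟩ := r2c_mul_zpow_mod E₀ (x ^ n) e₁ he₁ (n ^ j)
        refine ⟨e' * α e, mul_mem he' (hαE₀ α e he), ?_⟩
        rw [pow_succ', MulAut.mul_apply, hj, map_mul, map_zpow, hαx, hpw, ← zpow_mul,
          pow_succ', mul_assoc]
    obtain ⟨e, he, hm⟩ := hiter m
    rw [hαm, MulAut.one_apply] at hm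
    have h5 : x ^ (n ^ m - 1) ∈ E₀ := by
      have h7 : x ^ (n ^ m) = x * e⁻¹ := by rw [eq_mul_inv_iff_mul_eq]; exact hm.symm
      have h6 : x ^ (n ^ m - 1) = e⁻¹ := by
        have e0 : n ^ m - 1 = -1 + n ^ m := by ring
        rw [e0, zpow_add, zpow_neg_one, h7, inv_mul_cancel_left]
      rw [h6]; exact inv_mem he
    have h8 : (p : ℤ) ∣ n ^ m - 1 := r2c_dvd_of_zpow_mem E₀ x hxp hxE₀ _ h5
    have h9 : (p : ℤ) ∣ n - 1 := by
      rcases hprime.dvd_or_dvd h4 with h | h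
      · exact h
      · exfalso
        have h10 : n + 1 ∣ n ^ m + 1 := by
          have h := sub_dvd_pow_sub_pow n (-1) m
          rw [hmodd.neg_one_pow] at h
          simpa using h
        have h11 : (p : ℤ) ∣ n ^ m + 1 := h.trans h10
        have h12 : (p : ℤ) ∣ 2 := by
          have h := dvd_sub h11 h8
          have e : n ^ m + 1 - (n ^ m - 1) = 2 := by ring
          rwa [e] at h
        have h13 := Int.le_of_dvd (by norm_num) h12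
        have h14 : (3 : ℤ) < (p : ℤ) := by exact_mod_cast hp
        omega
    have h14 : x ^ n = x := by
      have h15 : x ^ (n - 1) = 1 := r2c_zpow_eq_one_of_dvd x hxp _ h9
      rw [zpow_sub, zpow_one, mul_inv_eq_one] at h15
      exact h15
    rw [hαx, h14, inv_mul_cancel_left]
    exact he₁
  have hMtop : centralizer (E₀ : Set P) = ⊤ := by
    apply hgen
    intro α hα r
    obtain ⟨i, m, hm, rfl⟩ := hdecomp r
    have h1 := key α hα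
    obtain ⟨e', he', hpw⟩ := r2c_mul_zpow_mod E₀ x (x⁻¹ * α x) h1 i
    rw [mul_inv_cancel_left] at hpw
    have h2 : (x ^ i * m)⁻¹ * α (x ^ i * m) = m⁻¹ * e' * α m := by
      rw [map_mul, map_zpow, hpw]; group
    rw [h2]
    exact mul_mem (mul_mem (inv_mem hm) (hE₀M he')) (hαM α m hm)
  apply hζ1
  have h1 : x ∈ centralizer (E₀ : Set P) := by rw [hMtop]; exact mem_top x
  have h2 : y * x = x * y := (mem_centralizer_iff.mp h1) y hyE₀
  rw [hζdef, ← h2]; group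

end r2cMain

end Cfsg.Agent.Helper22
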